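import Mathlib
import Cfsg.Agent.Lib.BasicSteiner.Witt.Srg100
import Cfsg.Agent.Lib.BasicSteiner.Witt.Stab
import Cfsg.Agent.S0410
import Cfsg.Agent.S0414

/-!
# The automorphism group of a strongly regular graph with parameters (100, 22, 0, 6)

The uniqueness of the design S(3, 6, 22) shows that the group is transitive on the vertices; the stabiliser of a
vertex is the automorphism group of the design of the non-neighbours.
-/

set_option autoImplicit false

namespace Cfsg.Agent.Lib.BasicSteiner.Witt.HSGraph

open Finset Cfsg.Agent.Lib.BasicSteiner.Witt.Srg100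
open scoped Pointwise

section PB

variable {α β : Type*} [DecidableEq α] [DecidableEq β]

/-- The bijection of the blocks given by an isomorphism of set systems. -/
def blockEquiv (e : α ≃ β) {B : Set (Finset α)} {B' : Set (Finset β)} (h : (fun b => b.image e) '' B = B') :
    B ≃ B' where
  toFun b := ⟨b.1.image e, h ▸ Set.mem_image_of_mem _ b.2⟩
  invFun c := ⟨c.1.image e.symm, by
    obtain ⟨b, hb, hc⟩ : c.1 ∈ (fun b => b.image e) '' B := by rw [h]; exact c.2
    have : c.1.image e.symm = b := by
      rw [← hc]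
      simp [Finset.image_image]
    rw [this]
    exact hb⟩
  left_inv b := by
    apply Subtype.ext
    simp [Finset.image_image]
  right_inv c := by
    apply Subtype.ext
    simp [Finset.image_image]

/-- The isomorphism of the point-block graphs given by an isomorphism of set systems. -/
def pbIso (e : α ≃ β) {B : Set (Finset α)} {B' : Set (Finset β)} (h : (fun b => b.image e) '' B = B') :
    Cfsg.pointBlockGraph B ≃g Cfsg.pointBlockGraph B' where
  toEquiv := Equiv.optionCongr (Equiv.sumCongr e (blockEquiv e h))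
  map_rel_iff' := by
    intro a b
    simp only [Cfsg.pointBlockGraph, SimpleGraph.fromRel_adj, ne_eq, EmbeddingLike.apply_eq_iff_eq]
    have key : ∀ a b, Cfsg.pointBlockRel _ (Equiv.optionCongr (Equiv.sumCongr e (blockEquiv e h)) a)
        (Equiv.optionCongr (Equiv.sumCongr e (blockEquiv e h)) b) ↔ Cfsg.pointBlockRel B a b := by
      rintro (_ | p | a') (_ | q | b') <;>
        simp only [Equiv.optionCongr_apply, Option.map_none, Option.map_some, Equiv.sumCongr_apply, Sum.map_inl,
          Sum.map_inr, Cfsg.pointBlockRel]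
      · show (e p ∈ b'.1.image e) ↔ _
        exact Function.Injective.mem_finset_image e.injective
      · show Disjoint (a'.1.image e) (b'.1.image e) ↔ _
        exact Finset.disjoint_image e.injective
    rw [key, key]

@[simp] theorem pbIso_none (e : α ≃ β) {B : Set (Finset α)} {B' : Set (Finset β)}
    (h : (fun b => b.image e) '' B = B') : pbIso e h none = none := rfl

@[simp] theorem pbIso_inl (e : α ≃ β) {B : Set (Finset α)} {B' : Set (Finset β)}
    (h : (fun b => b.image e) '' B = B') (a : α) : pbIso e h (some (Sum.inl a)) = some (Sum.inl (e a)) := rfl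

@[simp] theorem pbIso_inr (e : α ≃ β) {B : Set (Finset α)} {B' : Set (Finset β)}
    (h : (fun b => b.image e) '' B = B') (b : B) : pbIso e h (some (Sum.inr b)) =
      some (Sum.inr (blockEquiv e h b)) := rfl

end PB

variable {V : Type*} [Fintype V] {G : SimpleGraph V} [DecidableRel G.Adj] [DecidableEq V]

/-- The action of the automorphisms on the vertices. -/
instance autAct (G : SimpleGraph V) : MulAction (G ≃g G) V where
  smul f v := f v
  one_smul _ := rfl
  mul_smul _ _ _ := rfl

theorem smul_def' (f : G ≃g G) (v : V) : f • v = f v := rfl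

theorem isoPB_none (hG : G.IsSRGWith 100 22 0 6) (v : V) : isoPB hG v none = v := rfl

theorem isoPB_inl (hG : G.IsSRGWith 100 22 0 6) (v : V) (p : Pt G v) : isoPB hG v (some (Sum.inl p)) = p.1 := rfl

/-- The group is transitive on the vertices. -/
theorem exists_map (hG : G.IsSRGWith 100 22 0 6) (v w : V) : ∃ f : G ≃g G, f v = w := by
  obtain ⟨e, he⟩ := Cfsg.Agent.S0410.result (card_Pt hG v) (card_Pt hG w) (des_steiner hG v) (des_steiner hG w)
  refine ⟨(isoPB hG v).symm.trans ((pbIso e he).trans (isoPB hG w)), ?_⟩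
  show isoPB hG w (pbIso e he ((isoPB hG v).symm v)) = w
  have h1 : (isoPB hG v).symm v = none := by
    rw [RelIso.symm_apply_eq]
    rfl
  rw [h1]
  rfl

theorem pretrans (hG : G.IsSRGWith 100 22 0 6) : MulAction.IsPretransitive (G ≃g G) V :=
  ⟨fun v w => by
    obtain ⟨f, hf⟩ := exists_map hG v w
    exact ⟨f, hf⟩⟩

theorem fix_iff {v : V} (f : G ≃g G) (hf : f v = v) (x : V) : G.Adj v (f x) ↔ G.Adj v x := by
  have h := f.map_rel_iff (a := v) (b := x)
  rw [hf] at h
  exact h

/-- The restriction of an automorphism fixing `v` to the neighbours of `v`. -/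
def restr {v : V} (f : G ≃g G) (hf : f v = v) : Equiv.Perm (Pt G v) :=
  Equiv.Perm.subtypePerm (f.toEquiv : Equiv.Perm V) (fix_iff f hf)

theorem restr_apply {v : V} (f : G ≃g G) (hf : f v = v) (p : Pt G v) : (restr f hf p).1 = f p.1 := rfl

theorem restr_smul_block {v : V} (f : G ≃g G) (hf : f v = v) (x : V) :
    restr f hf • blockOf G v x = blockOf G v (f x) := by
  ext p
  rw [Finset.mem_smul_finset]
  simp only [mem_blockOf, Equiv.Perm.smul_def]
  constructor
  · rintro ⟨q, hq, rfl⟩
    rw [restr_apply]
    exact f.map_rel_iff.mpr hq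
  · intro h
    refine ⟨(restr f hf)⁻¹ p, ?_, by simp⟩
    have h2 : f ((restr f hf)⁻¹ p).1 = p.1 := by
      rw [← restr_apply f hf]
      simp
    rw [← h2] at h
    exact f.map_rel_iff.mp h

theorem map_mem_X {v x : V} (f : G ≃g G) (hf : f v = v) (hx : x ∈ X G v) : f x ∈ X G v := by
  rw [mem_X] at hx ⊢
  refine ⟨fun h => hx.1 (f.injective (h.trans hf.symm)), ?_⟩
  rw [fix_iff f hf]
  exact hx.2

theorem restr_mem {v : V} (f : G ≃g G) (hf : f v = v) : restr f hf ∈ Cfsg.setSystemAut (des G v) := by
  apply Cfsg.Agent.Lib.BasicSteiner.WittStab.aut_of_subset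
  rintro _ ⟨x, hx, rfl⟩
  exact ⟨f x, map_mem_X f hf hx, restr_smul_block f hf x⟩

/-- The stabiliser of a vertex acts on the design. -/
def stabHom (v : V) : MulAction.stabilizer (G ≃g G) v →* Cfsg.setSystemAut (des G v) where
  toFun f := ⟨restr f.1 f.2, restr_mem f.1 f.2⟩
  map_one' := by
    apply Subtype.ext
    ext p
    rfl
  map_mul' f g := by
    apply Subtype.ext
    ext p
    rfl

theorem stabHom_injective (hG : G.IsSRGWith 100 22 0 6) (v : V) :
    Function.Injective (stabHom (G := G) v) := by
  rw [injective_iff_map_eq_one]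
  intro f hf
  have h1 : restr f.1 f.2 = 1 := congrArg Subtype.val hf
  apply Subtype.ext
  apply RelIso.ext
  intro w
  show f.1 w = w
  by_cases hw : w = v
  · rw [hw]
    exact f.2
  · by_cases ha : G.Adj v w
    · have := restr_apply f.1 f.2 ⟨w, ha⟩
      rw [h1] at this
      exact this.symm
    · have hX : w ∈ X G v := mem_X.mpr ⟨hw, ha⟩
      have h2 := restr_smul_block f.1 f.2 w
      rw [h1, one_smul] at h2
      exact (blockOf_inj hG hX (map_mem_X f.1 f.2 hX) h2).symm

theorem image_of_mem {α : Type*} [DecidableEq α] {B : Set (Finset α)} {h : Equiv.Perm α}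
    (hh : h ∈ Cfsg.setSystemAut B) : (fun b => b.image h) '' B = B := by
  have h0 : h • B = B := MulAction.mem_stabilizer_iff.1 hh
  conv_rhs => rw [← h0]
  ext c
  simp only [Set.mem_image, Set.mem_smul_set]
  constructor
  · rintro ⟨b, hb, rfl⟩
    exact ⟨b, hb, rfl⟩
  · rintro ⟨b, hb, rfl⟩
    exact ⟨b, hb, rfl⟩

theorem stabHom_surjective (hG : G.IsSRGWith 100 22 0 6) (v : V) :
    Function.Surjective (stabHom (G := G) v) := by
  rintro ⟨h, hh⟩
  have hi := image_of_mem hh
  let f : G ≃g G := (isoPB hG v).symm.trans ((pbIso h hi).trans (isoPB hG v))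
  have h1 : ∀ a, (isoPB hG v).symm ((isoPB hG v) a) = a := fun a => (isoPB hG v).symm_apply_apply a
  have hf : f v = v := by
    show isoPB hG v (pbIso h hi ((isoPB hG v).symm (isoPB hG v none))) = v
    rw [h1]
    rfl
  refine ⟨⟨f, hf⟩, ?_⟩
  apply Subtype.ext
  ext p
  show f p.1 = (h p).1
  show isoPB hG v (pbIso h hi ((isoPB hG v).symm (isoPB hG v (some (Sum.inl p))))) = _
  rw [h1]
  rfl

/-- The stabiliser of a vertex is the automorphism group of the design. -/
noncomputable def stabEquiv (hG : G.IsSRGWith 100 22 0 6) (v : V) :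
    MulAction.stabilizer (G ≃g G) v ≃* Cfsg.setSystemAut (des G v) :=
  MulEquiv.ofBijective (stabHom v) ⟨stabHom_injective hG v, stabHom_surjective hG v⟩

theorem card_stab (hG : G.IsSRGWith 100 22 0 6) (v : V) :
    Nat.card (MulAction.stabilizer (G ≃g G) v) = 887040 := by
  rw [Nat.card_congr (stabEquiv hG v).toEquiv]
  exact (Cfsg.Agent.S0414.result (card_Pt hG v) (des_steiner hG v)).1

theorem index_stab (hG : G.IsSRGWith 100 22 0 6) (v : V) :
    (MulAction.stabilizer (G ≃g G) v).index = 100 := by
  have := pretrans hG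
  rw [MulAction.index_stabilizer, MulAction.orbit_eq_univ, Set.ncard_univ, Nat.card_eq_fintype_card, hG.card]

theorem card_aut (hG : G.IsSRGWith 100 22 0 6) : Nat.card (G ≃g G) = 88704000 := by
  have hne : Nonempty V := by
    apply Fintype.card_pos_iff.mp
    rw [hG.card]
    norm_num
  obtain ⟨v⟩ := hne
  have h := (MulAction.stabilizer (G ≃g G) v).card_mul_index
  rw [card_stab hG, index_stab hG] at h
  omega

end Cfsg.Agent.Lib.BasicSteiner.Witt.HSGraph
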