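import Mathlib
import Cfsg.Agent.Lib.BasicSteiner.Witt.HSGraph
import Cfsg.Agent.Lib.BasicSteiner.Witt.Stab2
import Cfsg.Agent.S0428
import Cfsg.Agent.Lib.BasicSteiner.Witt.Rank3

/-!
# The simple subgroup of index two in the automorphism group of the point-block graph

The model is the graph of the hexads.  The even permutations of the 100 vertices form a subgroup of index two, whose
point stabiliser is the two-point stabiliser in `M24`; this subgroup is simple.
-/

set_option autoImplicit false

namespace Cfsg.Agent.Lib.BasicSteiner.Witt.HSSimple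

open Cfsg Cfsg.Agent.Lib.Sporadic.GolayCore Cfsg.Agent.Lib.Sporadic.M24Tbl
open Cfsg.Agent.Lib.Sporadic.M24Chain Cfsg.Agent.Lib.Sporadic.M24Basic
open Cfsg.Agent.Lib.BasicSteiner.WittAut Cfsg.Agent.Lib.BasicSteiner.WittStab
open Cfsg.Agent.Lib.BasicSteiner.WittStab2 Cfsg.Agent.Lib.BasicSteiner.Witt.HSGraph
open scoped Pointwise

/-- The sign of an involution. -/
theorem sign_of_involution {X : Type*} [Fintype X] [DecidableEq X] (f : Equiv.Perm X) (hf : f ^ 2 = 1) {n : ℕ}
    (hn : f.support.card = 2 * n) : Equiv.Perm.sign f = (-1) ^ n := by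
  have hord : orderOf f ∣ 2 := orderOf_dvd_of_pow_eq_one hf
  have hc : ∀ m ∈ f.cycleType, m = 2 := by
    intro m hm
    have h1 := Equiv.Perm.dvd_of_mem_cycleType hm
    have h2 := Equiv.Perm.two_le_of_mem_cycleType hm
    have h3 := Nat.le_of_dvd (by norm_num) (h1.trans hord)
    omega
  have hrep : f.cycleType = Multiset.replicate (Multiset.card f.cycleType) 2 :=
    Multiset.eq_replicate.mpr ⟨rfl, hc⟩
  have hsum := Equiv.Perm.sum_cycleType f
  rw [hrep, Multiset.sum_replicate, hn] at hsum
  simp only [smul_eq_mul] at hsum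
  have hcard : Multiset.card f.cycleType = n := by omega
  rw [Equiv.Perm.sign_of_cycleType, Equiv.Perm.sum_cycleType, hn, hcard, pow_add, pow_mul]
  simp

noncomputable instance : Fintype ↥Hex := Fintype.ofFinite _

/-- The vertices of the graph. -/
abbrev VV : Type := Option (Om2 ⊕ ↥Hex)

/-- The graph of the hexads. -/
abbrev Gam : SimpleGraph VV := pointBlockGraph Hex

noncomputable instance : DecidableRel Gam.Adj := Classical.decRel _

theorem hGam : Gam.IsSRGWith 100 22 0 6 := Cfsg.Agent.S0428.result card_Om2 hex_steiner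

/-- The automorphisms of the graph as permutations of the vertices. -/
def toPerm : (Gam ≃g Gam) →* Equiv.Perm VV where
  toFun f := f.toEquiv
  map_one' := rfl
  map_mul' _ _ := rfl

/-- The sign of an automorphism on the vertices. -/
noncomputable def sgn : (Gam ≃g Gam) →* ℤˣ := Equiv.Perm.sign.comp toPerm

/-- The automorphism of the graph given by an automorphism of the design. -/
noncomputable def ext0 (h : A2) : Gam ≃g Gam := pbIso h.1 (image_of_mem h.2)

/-- Extension is a homomorphism. -/
noncomputable def ext : A2 →* (Gam ≃g Gam) where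
  toFun := ext0
  map_one' := by
    apply RelIso.ext
    rintro (_ | a | b)
    · rfl
    · rfl
    · show some (Sum.inr (blockEquiv _ _ b)) = some (Sum.inr b)
      congr 2
      apply Subtype.ext
      show b.1.image (1 : Equiv.Perm Om2) = b.1
      simp
  map_mul' h h' := by
    apply RelIso.ext
    rintro (_ | a | b)
    · rfl
    · rfl
    · show some (Sum.inr (blockEquiv _ _ b)) = some (Sum.inr (blockEquiv _ _ (blockEquiv _ _ b)))
      congr 2
      apply Subtype.ext
      show b.1.image ((h.1 * h'.1 : Equiv.Perm Om2)) = (b.1.image h'.1).image h.1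
      rw [Finset.image_image]
      rfl

theorem ext_none (h : A2) : ext h none = none := rfl

theorem ext_inl (h : A2) (a : Om2) : ext h (some (Sum.inl a)) = some (Sum.inl (h.1 a)) := rfl

theorem ext_inr_val (h : A2) (b : ↥Hex) :
    ext h (some (Sum.inr b)) = some (Sum.inr (blockEquiv h.1 (image_of_mem h.2) b)) := rfl

theorem ext_injective : Function.Injective ext := by
  intro h h' he
  apply Subtype.ext
  ext1 a
  have h1 := congrArg (fun f : Gam ≃g Gam => f (some (Sum.inl a))) he
  simp only [ext_inl] at h1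
  simpa using h1

theorem sgn_ext (h : A2) :
    sgn (ext h) = Equiv.Perm.sign h.1 * Equiv.Perm.sign (blockEquiv h.1 (image_of_mem h.2) : Equiv.Perm ↥Hex) := by
  show Equiv.Perm.sign (Equiv.optionCongr (Equiv.sumCongr h.1 (blockEquiv h.1 (image_of_mem h.2)))) = _
  rw [Equiv.optionCongr_sign]
  exact Equiv.Perm.sign_sumCongr _ _

/-- On the two-point stabiliser the sign is trivial. -/
theorem sgn_H2 (k : H2) : sgn (ext k.1) = 1 := by
  have hs := simple_H2
  let φ : H2 →* ℤˣ := (sgn.comp ext).comp H2.subtype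
  rcases hs.eq_bot_or_eq_top_of_normal φ.ker inferInstance with h | h
  · exfalso
    have hinj : Function.Injective φ := (MonoidHom.ker_eq_bot_iff φ).1 h
    have h1 := Nat.card_le_card_of_injective φ hinj
    rw [card_H2, Nat.card_eq_fintype_card, Fintype.card_units_int] at h1
    omega
  · have : k ∈ φ.ker := h ▸ Subgroup.mem_top k
    exact this

/-! ### An odd automorphism -/

/-- An involution of `M24` exchanging the two removed points. -/
def tblS : List ℕ := [8, 20, 18, 5, 19, 3, 7, 6, 0, 12, 14, 16, 9, 17, 10, 21, 11, 13, 2, 4, 1, 15, 23, 22]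

theorem tblS_valid : ValidTbl tblS := by decide +kernel

/-- The involution as a permutation. -/
noncomputable def s0 : Equiv.Perm GolayPt := tblPerm tblS tblS_valid

theorem s0_apply (p : GolayPt) : s0 p = tblFn tblS p := tblPerm_apply _ _ _

theorem s0_mem : s0 ∈ M24 := tblPerm_mem_M24 tblS_valid (by decide +kernel)

theorem s0_none : s0 none = q22 := by
  rw [s0_apply]
  decide +kernel

theorem s0_q : s0 q22 = none := by
  rw [s0_apply]
  decide +kernel

theorem s0_sq : s0 ^ 2 = 1 := by
  ext1 p
  rw [sq, Equiv.Perm.mul_apply, s0_apply, s0_apply]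
  revert p
  decide +kernel

theorem s0_pres (x : GolayPt) : P2 (s0 x) ↔ P2 x := pres_of_swap s0_none s0_q x

/-- The involution on the 22 points. -/
noncomputable def s1 : Equiv.Perm Om2 := s0.subtypePerm s0_pres

theorem s1_mem : s1 ∈ A2 := restr2_mem s0_mem s0_pres

theorem s1_apply (a : Om2) : (s1 a).1 = s0 a.1 := rfl

theorem s1_sq : s1 ^ 2 = 1 := by
  ext1 a
  apply Subtype.ext
  rw [sq, Equiv.Perm.mul_apply, s1_apply, s1_apply, ← Equiv.Perm.mul_apply, ← sq, s0_sq]
  rfl

theorem s1_sign : Equiv.Perm.sign s1 = -1 := by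
  have h1 : s1.support = Finset.univ := by
    ext a
    simp only [Equiv.Perm.mem_support, Finset.mem_univ, iff_true]
    intro h
    have h2 := congrArg Subtype.val h
    rw [s1_apply, s0_apply] at h2
    have : ∀ p : GolayPt, P2 p → tblFn tblS p ≠ p := by decide +kernel
    exact this a.1 a.2 h2
  have h2 : s1.support.card = 2 * 11 := by
    rw [h1, Finset.card_univ, card_Om2]
  rw [sign_of_involution s1 s1_sq h2]
  rfl

/-! ### The blocks -/

/-- The hexads as masks. -/
def hexList : List ℕ := octadList.filter fun m => m.testBit 23 && m.testBit 22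

theorem hexList_mem {m : ℕ} (hm : m ∈ hexList) :
    ofMask m ∈ octads ∧ none ∈ ofMask m ∧ q22 ∈ ofMask m := by
  obtain ⟨h1, h2⟩ := List.mem_filter.mp hm
  simp only [Bool.and_eq_true] at h2
  refine ⟨(ofMask_mem_octads_iff (octadList_lt h1)).mpr h1, ?_, ?_⟩
  · rw [mem_ofMask]; exact h2.1
  · rw [mem_ofMask]; exact h2.2

/-- The hexad of a mask. -/
def psi (m : ℕ) : Finset Om2 := Finset.subtype P2 (ofMask m)

theorem psi_mem {m : ℕ} (hm : m ∈ hexList) : psi m ∈ Hex := by
  obtain ⟨h1, h2, h3⟩ := hexList_mem hm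
  exact ⟨_, h1, h2, h3, rfl⟩

theorem psi_inj {m m' : ℕ} (hm : m ∈ hexList) (hm' : m' ∈ hexList) (h : psi m = psi m') : m = m' := by
  obtain ⟨-, h2, h3⟩ := hexList_mem hm
  obtain ⟨-, h2', h3'⟩ := hexList_mem hm'
  have h5 : ofMask m = ofMask m' := by
    ext p
    by_cases hp : P2 p
    · have h6 := Finset.ext_iff.mp h ⟨p, hp⟩
      simpa [psi] using h6
    · rcases not_P2_iff.mp hp with rfl | rfl
      · exact ⟨fun _ => h2', fun _ => h2⟩
      · exact ⟨fun _ => h3', fun _ => h3⟩
  exact (ofMask_inj (octadList_lt (List.mem_filter.mp hm).1) (octadList_lt (List.mem_filter.mp hm').1)).mp h5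

theorem exists_mask {b : Finset Om2} (hb : b ∈ Hex) : ∃ m ∈ hexList, b = psi m := by
  obtain ⟨c, hc, h1, h2, rfl⟩ := hb
  refine ⟨toMask c, ?_, ?_⟩
  · refine List.mem_filter.mpr ⟨(mem_octads_iff c).mp hc, ?_⟩
    have h3 := testBit_toMask c none
    have h4 := testBit_toMask c q22
    rw [idx_none] at h3
    rw [idx_q22] at h4
    simp [h3, h4, h1, h2]
  · simp [psi]

theorem s1_smul_psi (m : ℕ) : s1 • psi m = psi (applyT tblS m) := by
  unfold psi
  rw [ofMask_applyT tblS_valid]
  exact (subtype_smul s0 s0_pres _).symm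

/-- The action of the involution on the hexads. -/
noncomputable def s2 : Equiv.Perm ↥Hex := blockEquiv s1 (image_of_mem s1_mem)

theorem s2_apply (b : ↥Hex) : (s2 b).1 = s1 • b.1 := rfl

theorem s2_sq : s2 ^ 2 = 1 := by
  ext1 b
  apply Subtype.ext
  rw [sq, Equiv.Perm.mul_apply, s2_apply, s2_apply, ← mul_smul, ← sq, s1_sq, one_smul]
  rfl

/-- The hexads moved by the involution. -/
def movedList : List ℕ := hexList.filter fun m => !(applyT tblS m == m)

theorem movedList_nodup : movedList.Nodup := by decide +kernel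

theorem movedList_length : movedList.length = 72 := by decide +kernel

theorem applyT_mem : ∀ m ∈ hexList, applyT tblS m ∈ hexList := by decide +kernel

theorem s2_support_card : s2.support.card = 2 * 36 := by
  have h : s2.support.card = movedList.toFinset.card := by
    symm
    apply Finset.card_bij (fun m hm => (⟨psi m, psi_mem (List.mem_filter.mp (List.mem_toFinset.mp hm)).1⟩ : ↥Hex))
    · intro m hm
      have hm' := List.mem_filter.mp (List.mem_toFinset.mp hm)
      rw [Equiv.Perm.mem_support]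
      intro h1
      have h2 := congrArg Subtype.val h1
      rw [s2_apply] at h2
      simp only at h2
      rw [s1_smul_psi] at h2
      have h3 := psi_inj (applyT_mem m hm'.1) hm'.1 h2
      simp [h3] at hm'
    · intro m hm m' hm' he
      have h1 := List.mem_filter.mp (List.mem_toFinset.mp hm)
      have h2 := List.mem_filter.mp (List.mem_toFinset.mp hm')
      exact psi_inj h1.1 h2.1 (congrArg Subtype.val he)
    · rintro ⟨b, hb⟩ hsupp
      obtain ⟨m, hm, rfl⟩ := exists_mask hb
      refine ⟨m, List.mem_toFinset.mpr (List.mem_filter.mpr ⟨hm, ?_⟩), rfl⟩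
      rw [Equiv.Perm.mem_support] at hsupp
      simp only [Bool.not_eq_true', beq_eq_false_iff_ne]
      intro h1
      apply hsupp
      apply Subtype.ext
      rw [s2_apply]
      simp only
      rw [s1_smul_psi, h1]
  rw [h, List.toFinset_card_of_nodup movedList_nodup, movedList_length]

theorem s2_sign : Equiv.Perm.sign s2 = 1 := by
  rw [sign_of_involution s2 s2_sq s2_support_card]
  rfl

/-- The odd element of the design group. -/
noncomputable def s3 : A2 := ⟨s1, s1_mem⟩

theorem sgn_s3 : sgn (ext s3) = -1 := by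
  rw [sgn_ext]
  show Equiv.Perm.sign s1 * Equiv.Perm.sign s2 = -1
  rw [s1_sign, s2_sign]
  rfl

/-! ### The subgroup of even automorphisms -/

instance finite_aut : Finite (Gam ≃g Gam) :=
  Finite.of_injective (fun f : Gam ≃g Gam => (f.toEquiv : Equiv.Perm VV))
    (fun _ _ h => RelIso.ext (fun v => congrArg (fun e : Equiv.Perm VV => e v) h))

/-- The even automorphisms. -/
noncomputable def Hh : Subgroup (Gam ≃g Gam) := sgn.ker

theorem mem_Hh {f : Gam ≃g Gam} : f ∈ Hh ↔ sgn f = 1 := MonoidHom.mem_ker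

theorem sgn_surj : Function.Surjective sgn := by
  intro u
  rcases Int.units_eq_one_or u with rfl | rfl
  · exact ⟨1, map_one _⟩
  · exact ⟨ext s3, sgn_s3⟩

theorem index_Hh : Hh.index = 2 := by
  have h1 : Hh.index = Nat.card sgn.range := Subgroup.index_ker sgn
  rw [h1, MonoidHom.range_eq_top.mpr sgn_surj, Subgroup.card_top, Nat.card_eq_fintype_card,
    Fintype.card_units_int]

theorem card_Hh : Nat.card Hh = 44352000 := by
  have h1 := Hh.card_mul_index
  rw [index_Hh, HSGraph.card_aut hGam] at h1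
  omega

theorem exists_even (x : VV) : ∃ f : Hh, f.1 none = x := by
  obtain ⟨g, hg⟩ := exists_map hGam none x
  by_cases h : sgn g = 1
  · exact ⟨⟨g, mem_Hh.2 h⟩, hg⟩
  · have h1 : sgn g = -1 := (Int.units_eq_one_or _).resolve_left h
    refine ⟨⟨g * ext s3, mem_Hh.2 ?_⟩, hg⟩
    rw [map_mul, h1, sgn_s3]
    rfl

instance Hh_pretrans : MulAction.IsPretransitive Hh VV := by
  refine ⟨fun x y => ?_⟩
  obtain ⟨f, hf⟩ := exists_even x
  obtain ⟨f', hf'⟩ := exists_even y
  refine ⟨f' * f⁻¹, ?_⟩
  show f'.1 (f.1⁻¹ x) = y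
  have h1 : f.1⁻¹ x = none := by
    rw [← hf]
    exact f.1.symm_apply_apply none
  rw [h1, hf']

instance Hh_faithful : FaithfulSMul Hh VV := by
  refine ⟨fun {f f'} h => ?_⟩
  apply Subtype.ext
  apply RelIso.ext
  exact h

theorem card_VV : Fintype.card VV = 100 := hGam.card

theorem card_stabH : Nat.card (MulAction.stabilizer Hh (none : VV)) = 443520 := by
  have h1 := (MulAction.stabilizer Hh (none : VV)).card_mul_index
  rw [MulAction.index_stabilizer_of_transitive, card_Hh, Nat.card_eq_fintype_card (α := VV), card_VV] at h1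
  omega

/-- The two-point stabiliser as the stabiliser in the even automorphisms. -/
noncomputable def phi : H2 →* MulAction.stabilizer Hh (none : VV) where
  toFun k := ⟨⟨ext k.1, mem_Hh.2 (sgn_H2 k)⟩, ext_none k.1⟩
  map_one' := by
    apply Subtype.ext
    apply Subtype.ext
    exact map_one ext
  map_mul' k k' := by
    apply Subtype.ext
    apply Subtype.ext
    exact map_mul ext k.1 k'.1

theorem phi_coe (k : H2) : (phi k).1.1 = ext k.1 := rfl

theorem phi_injective : Function.Injective phi := by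
  intro k k' h
  apply Subtype.ext
  apply ext_injective
  have := congrArg (fun x : MulAction.stabilizer Hh (none : VV) => x.1.1) h
  exact this

theorem phi_bijective : Function.Bijective phi := by
  rw [Nat.bijective_iff_injective_and_card]
  exact ⟨phi_injective, by rw [card_H2, card_stabH]⟩

theorem simple_stab : IsSimpleGroup (MulAction.stabilizer Hh (none : VV)) := by
  have := simple_H2
  exact (MulEquiv.ofBijective phi phi_bijective).symm.isSimpleGroup

theorem h2_threeTrans (x y : Fin 3 ↪ Om2) : ∃ k : H2, ∀ i, k.1.1 (x i) = y i := by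
  have key : ∀ z : Fin 3 ↪ Om2, Function.Injective
      (Fin.cons none (Fin.cons q22 (fun i => (z i).1)) : Fin 5 → GolayPt) := by
    intro z
    rw [Fin.cons_injective_iff, Fin.cons_injective_iff]
    refine ⟨?_, ?_, fun i j hij => z.injective (Subtype.ext hij)⟩
    · rintro ⟨i, hi⟩
      revert hi
      refine Fin.cases ?_ (fun j => ?_) i
      · simp
      · simpa using (z j).2.1
    · rintro ⟨i, hi⟩
      exact (z i).2.2 hi
  have := m24_fiveTrans
  obtain ⟨g, hg⟩ := MulAction.exists_smul_eq M24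
    (⟨_, key x⟩ : Fin 5 ↪ GolayPt) (⟨_, key y⟩ : Fin 5 ↪ GolayPt)
  have hg' : ∀ i, g.1 ((Fin.cons none (Fin.cons q22 (fun i => (x i).1)) : Fin 5 → GolayPt) i) =
      (Fin.cons none (Fin.cons q22 (fun i => (y i).1)) : Fin 5 → GolayPt) i := by
    intro i
    exact congrArg (fun z : Fin 5 ↪ GolayPt => z i) hg
  have hn : g.1 none = none := by simpa using hg' 0
  have hq : g.1 q22 = q22 := by simpa using hg' (Fin.succ 0)
  refine ⟨h2Equiv.symm ⟨g, hn, hq⟩, fun i => ?_⟩
  have := hg' i.succ.succ
  simp only [Fin.cons_succ] at this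
  exact Subtype.ext this

/-- A triple inside a finite set of the right size. -/
theorem exists_emb_of_card {s : Finset Om2} (hs : s.card = 3) :
    ∃ z : Fin 3 ↪ Om2, ∀ p, p ∈ s ↔ ∃ i, z i = p := by
  refine ⟨(Finset.equivFinOfCardEq hs).symm.toEmbedding.trans (Function.Embedding.subtype _), fun p => ?_⟩
  constructor
  · intro hp
    exact ⟨Finset.equivFinOfCardEq hs ⟨p, hp⟩, by simp⟩
  · rintro ⟨i, rfl⟩
    simp

theorem h2_pts (a a' : Om2) : ∃ k : H2, k.1.1 a = a' := by
  have hne : ∀ a : Om2, ∃ z : Fin 3 ↪ Om2, z 0 = a := by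
    intro a
    have h1 := Finset.exists_subset_card_eq (s := (Finset.univ.erase a : Finset Om2)) (n := 2)
      (by rw [Finset.card_erase_of_mem (Finset.mem_univ _), Finset.card_univ, card_Om2]; norm_num)
    obtain ⟨s, hs, hs2⟩ := h1
    have ha : a ∉ s := fun h => (Finset.mem_erase.1 (hs h)).1 rfl
    obtain ⟨z, hz⟩ := exists_emb_of_card (s := insert a s) (by
      rw [Finset.card_insert_of_notMem ha, hs2])
    obtain ⟨i, hi⟩ := (hz a).1 (Finset.mem_insert_self _ _)
    exact ⟨(Equiv.swap 0 i).toEmbedding.trans z, by simpa using hi⟩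
  obtain ⟨z, hz⟩ := hne a
  obtain ⟨z', hz'⟩ := hne a'
  obtain ⟨k, hk⟩ := h2_threeTrans z z'
  exact ⟨k, by rw [← hz, ← hz', hk]⟩

theorem h2_blocks {b b' : Finset Om2} (hb : b ∈ Hex) (hb' : b' ∈ Hex) : ∃ k : H2, b.image k.1.1 = b' := by
  have hS := hex_steiner
  obtain ⟨s, hs, hs3⟩ := Finset.exists_subset_card_eq (s := b) (n := 3) (by rw [hS.1 b hb]; norm_num)
  obtain ⟨s', hs', hs3'⟩ := Finset.exists_subset_card_eq (s := b') (n := 3) (by rw [hS.1 b' hb']; norm_num)
  obtain ⟨z, hz⟩ := exists_emb_of_card hs3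
  obtain ⟨z', hz'⟩ := exists_emb_of_card hs3'
  obtain ⟨k, hk⟩ := h2_threeTrans z z'
  refine ⟨k, ?_⟩
  have h1 : b.image k.1.1 ∈ Hex := by
    rw [← image_of_mem k.1.2]
    exact Set.mem_image_of_mem _ hb
  have h2 : s' ⊆ b.image k.1.1 := by
    intro p hp
    obtain ⟨i, rfl⟩ := (hz' p).1 hp
    rw [← hk, Finset.mem_image]
    exact ⟨z i, hs ((hz _).2 ⟨i, rfl⟩), rfl⟩
  exact (hS.2 s' hs3').unique ⟨h1, h2⟩ ⟨hb', hs'⟩

theorem card_hex : Nat.card ↥Hex = 77 := by
  have h1 := card_VV
  rw [Fintype.card_option, Fintype.card_sum, card_Om2] at h1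
  rw [Nat.card_eq_fintype_card]
  omega

theorem smul_some_inl (k : MulAction.stabilizer Hh (none : VV)) (a : Om2) :
    ∃ k' : H2, k' = (MulEquiv.ofBijective phi phi_bijective).symm k ∧
      k.1 • (some (Sum.inl a) : VV) = some (Sum.inl (k'.1.1 a)) := by
  refine ⟨_, rfl, ?_⟩
  have h1 : phi ((MulEquiv.ofBijective phi phi_bijective).symm k) = k :=
    (MulEquiv.ofBijective phi phi_bijective).apply_symm_apply k
  conv_lhs => rw [← h1]
  rfl

theorem smul_some_inr (k : MulAction.stabilizer Hh (none : VV)) (b : ↥Hex) :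
    ∃ (k' : H2) (h : _), k' = (MulEquiv.ofBijective phi phi_bijective).symm k ∧
      k.1 • (some (Sum.inr b) : VV) = some (Sum.inr ⟨b.1.image k'.1.1, h⟩) := by
  refine ⟨_, (blockEquiv _ (image_of_mem ((MulEquiv.ofBijective phi phi_bijective).symm k).1.2) b).2, rfl, ?_⟩
  have h1 : phi ((MulEquiv.ofBijective phi phi_bijective).symm k) = k :=
    (MulEquiv.ofBijective phi phi_bijective).apply_symm_apply k
  conv_lhs => rw [← h1]
  rfl

/-- The even automorphisms form a simple group. -/
theorem simple_Hh : IsSimpleGroup Hh := by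
  have hinjA : Function.Injective (fun a : Om2 => (some (Sum.inl a) : VV)) := by
    intro a a' h
    simpa using h
  have hinjB : Function.Injective (fun b : ↥Hex => (some (Sum.inr b) : VV)) := by
    intro a a' h
    simpa using h
  refine Rank3.simple_of_rank3 (none : VV) card_VV simple_stab card_stabH
    (Set.range fun a : Om2 => (some (Sum.inl a) : VV)) (Set.range fun b : ↥Hex => (some (Sum.inr b) : VV))
    ?_ ?_ ?_ ?_ ?_ ?_ ?_ ?_ ?_ ?_
  · rw [← Set.image_univ, Set.ncard_image_of_injective _ hinjA, Set.ncard_univ, Nat.card_eq_fintype_card,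
      card_Om2]
  · rw [← Set.image_univ, Set.ncard_image_of_injective _ hinjB, Set.ncard_univ, card_hex]
  · rintro (_ | a | b)
    · exact Or.inl rfl
    · exact Or.inr (Or.inl ⟨a, rfl⟩)
    · exact Or.inr (Or.inr ⟨b, rfl⟩)
  · rw [Set.disjoint_left]
    rintro _ ⟨a, rfl⟩ ⟨b, hb⟩
    simp at hb
  · rintro ⟨a, ha⟩
    simp at ha
  · rintro ⟨a, ha⟩
    simp at ha
  · rintro k _ ⟨a, rfl⟩
    obtain ⟨k', -, h⟩ := smul_some_inl k a
    exact ⟨_, h.symm⟩
  · rintro k _ ⟨a, rfl⟩
    obtain ⟨k', h', -, h⟩ := smul_some_inr k a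
    exact ⟨_, h.symm⟩
  · rintro _ ⟨a, rfl⟩ _ ⟨a', rfl⟩
    obtain ⟨k, hk⟩ := h2_pts a a'
    refine ⟨phi k, ?_⟩
    show some (Sum.inl (k.1.1 a)) = _
    rw [hk]
  · rintro _ ⟨a, rfl⟩ _ ⟨a', rfl⟩
    obtain ⟨k, hk⟩ := h2_blocks a.2 a'.2
    refine ⟨phi k, ?_⟩
    show some (Sum.inr (blockEquiv k.1.1 (image_of_mem k.1.2) a)) = _
    congr 2
    apply Subtype.ext
    exact hk

/-- Conjugation by a graph isomorphism. -/
def conjIso {V W : Type*} {G : SimpleGraph V} {G' : SimpleGraph W} (i : G ≃g G') : (G ≃g G) ≃* (G' ≃g G') where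
  toFun f := i.symm.trans (f.trans i)
  invFun f := i.trans (f.trans i.symm)
  left_inv f := by
    apply RelIso.ext
    intro v
    show i.symm (i (f (i.symm (i v)))) = f v
    simp
  right_inv f := by
    apply RelIso.ext
    intro v
    show i (i.symm (f (i (i.symm v)))) = f v
    simp
  map_mul' f f' := by
    apply RelIso.ext
    intro v
    show i (f (f' (i.symm v))) = i (f (i.symm (i (f' (i.symm v)))))
    simp

end Cfsg.Agent.Lib.BasicSteiner.Witt.HSSimple
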